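import Cfsg.Agent.Lib.TC.G.Fi22
import Cfsg.Agent.Lib.TC.Simple

set_option autoImplicit false

namespace Cfsg.Agent.Lib.TC.Data.Fi22S3

open Cfsg.Agent.Lib.TC

noncomputable def aE_0_0 (k : ℕ) : ℕ := Nat.land (Nat.shiftRight (nat_lit 0x58064290e4490006929c7822098000c72e0d73d8e7001164995441d4500175615a365536001c475166791f30021388db58ca0400252a066290e72002d0a4aa1ac6c1002e1bc300c4320) (Nat.mul (Nat.land k (nat_lit 255)) (nat_lit 10))) (nat_lit 1023)
noncomputable def aE (k : ℕ) : ℕ := Bool.rec (nat_lit 0) (aE_0_0 k) (Nat.blt k (nat_lit 256))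

noncomputable def aR_0_0 (k : ℕ) : ℕ := Nat.land (Nat.shiftRight (nat_lit 0x410ddcb0d585ac214000000719bb1594ae7500032cc000c93609a9540008d3461a08c0006650001b4cd8662324ab00c0006833398000ca660300012cc94600020980000002e31198b14000275000010c0000d505a821400000009084442020f1) (Nat.mul (Nat.land k (nat_lit 255)) (nat_lit 13))) (nat_lit 8191)
noncomputable def aR (k : ℕ) : ℕ := Bool.rec (nat_lit 0) (aR_0_0 k) (Nat.blt k (nat_lit 256))

noncomputable def aK_0_0 (k : ℕ) : ℕ := Nat.land (Nat.shiftRight (nat_lit 0xd2d95a512349100) (Nat.mul (Nat.land k (nat_lit 255)) (nat_lit 6))) (nat_lit 63)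
noncomputable def aK (k : ℕ) : ℕ := Bool.rec (nat_lit 0) (aK_0_0 k) (Nat.blt k (nat_lit 256))

noncomputable def aT_0_0 (k : ℕ) : ℕ := Nat.land (Nat.shiftRight (nat_lit 0x89999978887876766475553564464333524212320211110000) (Nat.mul (Nat.land k (nat_lit 255)) (nat_lit 4))) (nat_lit 15)
noncomputable def aT (k : ℕ) : ℕ := Bool.rec (nat_lit 0) (aT_0_0 k) (Nat.blt k (nat_lit 256))

noncomputable def aN_0_0 (k : ℕ) : ℕ := Nat.land (Nat.shiftRight (nat_lit 0x9876543210) (Nat.mul (Nat.land k (nat_lit 255)) (nat_lit 4))) (nat_lit 15)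
noncomputable def aN (k : ℕ) : ℕ := Bool.rec (nat_lit 0) (aN_0_0 k) (Nat.blt k (nat_lit 256))

noncomputable def tT (i g : ℕ) : ℕ := aT (Nat.add (Nat.mul i (nat_lit 5)) g)

def words : List (List ℕ) := [[0,0],[1,1],[2,2],[3,3],[4,4],[0,1,0,1,0,1],[0,2,0,2],[0,3,0,3],[0,4,0,4],[1,2,1,2,1,2],[1,3,1,3,1,3],[1,4,1,4],[2,3,2,3],[2,4,2,4],[3,4,3,4,3,4],[0],[1],[2],[3]]

noncomputable def Fk (k : ℕ) : Bool := checkKey (nat_lit 6) (nat_lit 5) (nat_lit 4) (nat_lit 15) aE (wordAt words) (nat_lit 15) (nat_lit 19) aR aK (nat_lit 14) (nat_lit 3) (nat_lit 7) (nat_lit 5) (nat_lit 31) k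

noncomputable def cert : Cert where
  sz := 6
  ep := 5
  b := 4
  m := 15
  E := aE
  W := wordAt words
  nrel := 15
  nW := 19
  K := 256
  R := aR
  pk := aK
  fuel := 14
  bp := 3
  mp := 7
  bw := 5
  mw := 31

noncomputable def Fp (i : ℕ) : Bool := ptFin2 (nat_lit 10) (nat_lit 5) tT aN (nat_lit 6) (nat_lit 5) (nat_lit 4) (nat_lit 15) aE (nat_lit 14) i

end Cfsg.Agent.Lib.TC.Data.Fi22S3
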